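import Mathlib
import Cfsg.Agent.INV.Len8.Base
import Cfsg.Agent.INV.Four

/-!
An elementary abelian group `⟨z⟩ × V` of order eight whose automizer contains the affine group of
the coset `z V`.
-/

set_option autoImplicit false
set_option linter.unusedSectionVars false
open Cfsg Subgroup CL.MSS CL.Len

namespace CL.Len8

variable {G : Type*} [Group G] [Finite G]

/-- a four-group with an element acting as a three-cycle -/
structure Tri (V : Subgroup G) (t b x : G) : Prop where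
  mem : ∀ v, v ∈ V ↔ v = 1 ∨ v = t ∨ v = b ∨ v = t * b
  card : Nat.card V = 4
  tt : t * t = 1
  bb : b * b = 1
  tb : b * t = t * b
  xt : x * t * x⁻¹ = b
  xb : x * b * x⁻¹ = t * b

namespace Tri

variable {V : Subgroup G} {t b x : G} (h : Tri V t b x)
include h

theorem tV : t ∈ V := (h.mem _).2 (by simp)
theorem bV : b ∈ V := (h.mem _).2 (by simp)

theorem t1 : t ≠ 1 := fun e => by
  have e2 : b = 1 := by rw [← h.xt, e]; group
  have : V = ⊥ := eq_bot_iff.2 fun v hv => by simpa [e, e2] using (h.mem v).1 hv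
  simpa [this] using h.card

theorem b1 : b ≠ 1 := fun e => h.t1 (by rw [← cj_inv_of h.xt, e]; group)

theorem tb1 : t * b ≠ 1 := fun e => h.b1 (by rw [← cj_inv_of h.xb, e]; group)

theorem ne : t ≠ b := fun e => h.tb1 (by rw [← e, h.tt])

theorem xtb : x * (t * b) * x⁻¹ = t := by
  rw [cj_mul', h.xt, h.xb, ← mul_assoc, h.tb, mul_assoc, h.bb, mul_one]

theorem sq {v : G} (hv : v ∈ V) : v * v = 1 := by
  rcases (h.mem v).1 hv with rfl | rfl | rfl | rfl
  · simp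
  · exact h.tt
  · exact h.bb
  · rw [mul_assoc, ← mul_assoc b, h.tb, mul_assoc, h.bb, mul_one, h.tt]

theorem inv {v : G} (hv : v ∈ V) : v⁻¹ = v := inv_eq_of_mul_eq_one_right (h.sq hv)

theorem comm {v w : G} (hv : v ∈ V) (hw : w ∈ V) : v * w = w * v := by
  rw [← h.inv (V.mul_mem hv hw), mul_inv_rev, h.inv hv, h.inv hw]

theorem cent {g : G} (h1 : g * t * g⁻¹ = t) (h2 : g * b * g⁻¹ = b) : g ∈ centralizer (V : Set G) :=
  fun v hv => by
  rw [eq_comm, ← mul_inv_eq_iff_eq_mul]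
  rcases (h.mem v).1 hv with rfl | rfl | rfl | rfl
  · simp
  · exact h1
  · exact h2
  · rw [cj_mul', h1, h2]

theorem norm {g : G} (h1 : g * t * g⁻¹ ∈ V) (h2 : g * b * g⁻¹ ∈ V) : g ∈ normalizer (V : Set G) :=
  mem_normalizer_of_cj_le (cj_le_iff_forall.2 fun v hv => by
    rcases (h.mem v).1 hv with rfl | rfl | rfl | rfl
    · simp
    · exact h1
    · exact h2
    · rw [cj_mul']; exact V.mul_mem h1 h2)

theorem xN : x ∈ normalizer (V : Set G) :=
  h.norm (h.xt ▸ h.bV) (h.xb ▸ V.mul_mem h.tV h.bV)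

theorem fpf {v : G} (hv : v ∈ V) (e : x * v * x⁻¹ = v) : v = 1 := by
  rcases (h.mem v).1 hv with rfl | rfl | rfl | rfl
  · rfl
  · exact absurd (e.symm.trans h.xt) h.ne
  · exact absurd (by simpa using h.xb.symm.trans e) h.t1
  · exact absurd (by simpa using e.symm.trans h.xtb) h.b1

theorem x3 : x ^ 3 ∈ centralizer (V : Set G) := by
  have e : x ^ 3 = x * (x * x) := by rw [pow_succ', _root_.sq]
  refine h.cent ?_ ?_
  · rw [e, cj_cj, cj_cj, h.xt, h.xb, h.xtb]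
  · rw [e, cj_cj, cj_cj, h.xb, h.xtb, h.xt]

theorem nt : NT x := NT.of_odd (C := centralizer (V : Set G)) (m := 3) (by decide) h.x3 fun e =>
  h.t1 (h.fpf h.tV (by rw [← e t h.tV]; group))

theorem nrm {v : G} (hv : v ∈ V) : v * (x * v * x⁻¹) * (x * (x * v * x⁻¹) * x⁻¹) = 1 := by
  rcases (h.mem v).1 hv with rfl | rfl | rfl | rfl
  · simp
  · rw [h.xt, h.xb]; exact h.sq (V.mul_mem h.tV h.bV)
  · rw [h.xb, h.xtb, ← mul_assoc v, h.tb, mul_assoc t v, h.bb, mul_one, h.tt]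
  · rw [h.xtb, h.xt, mul_assoc]; exact h.sq (V.mul_mem h.tV h.bV)

theorem trans {v w : G} (hv : v ∈ V) (hw : w ∈ V) (h1 : v ≠ 1) (h2 : w ≠ 1) :
    w = v ∨ w = x * v * x⁻¹ ∨ w = x * (x * v * x⁻¹) * x⁻¹ := by
  rcases (h.mem v).1 hv with rfl | rfl | rfl | rfl
  · exact absurd rfl h1
  · rw [h.xt, h.xb]; simpa [h2] using (h.mem w).1 hw
  · rw [h.xb, h.xtb]; have := (h.mem w).1 hw; tauto
  · rw [h.xtb, h.xt]; have := (h.mem w).1 hw; tauto

/-- rotate the names -/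
theorem rot : Tri V b (t * b) x where
  mem v := by
    rw [h.mem, ← mul_assoc, h.tb, mul_assoc, h.bb, mul_one]; tauto
  card := h.card
  tt := h.bb
  bb := h.sq (V.mul_mem h.tV h.bV)
  tb := h.comm (V.mul_mem h.tV h.bV) h.bV
  xt := h.xb
  xb := by rw [h.xtb, ← mul_assoc, h.tb, mul_assoc, h.bb, mul_one]

end Tri

/-- the configuration -/
structure Aff (V : Subgroup G) (t b x z g : G) : Prop extends Tri V t b x where
  zz : z * z = 1
  zV : z ∉ V
  zc : z ∈ centralizer (V : Set G)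
  xz : x * z * x⁻¹ = z
  gc : g ∈ centralizer (V : Set G)
  gz : g * z * g⁻¹ = z * t
  ce : ∀ a ∈ centralizer (V : Set G), a * z * a⁻¹ = z → a ∈ V ∨ z * a ∈ V

/-- the translation induced by `p` -/
def tau (z p : G) : G := z⁻¹ * (p * z * p⁻¹)

theorem tau_eq (z p : G) : p * z * p⁻¹ = z * tau z p := by simp [tau]

theorem tau_cj {z d : G} (hd : d * z * d⁻¹ = z) (p : G) :
    tau z (d * p * d⁻¹) = d * tau z p * d⁻¹ := by
  have e : d * z⁻¹ * d⁻¹ = z⁻¹ := by rw [← conj_inv, hd]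
  have e2 := cj_inv_of hd
  unfold tau
  calc _ = z⁻¹ * (d * (p * (d⁻¹ * z * d⁻¹⁻¹) * p⁻¹) * d⁻¹) := by group
    _ = _ := by rw [e2, cj_mul' d z⁻¹, e]

theorem tau_mul {V : Subgroup G} {z p q : G} (hp : p ∈ centralizer (V : Set G)) (hq : tau z q ∈ V) :
    tau z (p * q) = tau z p * tau z q := by
  rw [tau, cj_cj, tau_eq z q, cj_mul', tau_eq z p, ← hp _ hq]; group

/-- the elements inducing translations -/
def PP (V : Subgroup G) (z : G) : Subgroup G where
  carrier := {p | p ∈ centralizer (V : Set G) ∧ tau z p ∈ V}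
  one_mem' := ⟨one_mem _, by simp [tau]⟩
  mul_mem' := fun {a b} ha hb => ⟨mul_mem ha.1 hb.1, by
    rw [tau_mul ha.1 hb.2]; exact mul_mem ha.2 hb.2⟩
  inv_mem' := fun {a} ha => ⟨inv_mem ha.1, by
    have : tau z a⁻¹ = a⁻¹ * (tau z a)⁻¹ * a := by simp only [tau]; group
    rw [this, mul_assoc, ha.1 _ (V.inv_mem ha.2)]
    simpa using ha.2⟩

theorem PP_norm {V : Subgroup G} {z d : G} (hd : d * z * d⁻¹ = z) (h : d ∈ normalizer (V : Set G)) :
    d ∈ normalizer (PP V z : Set G) :=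
  mem_normalizer_of_cj_le (cj_le_iff_forall.2 fun p hp =>
    ⟨(mem_normalizer_iff.1 (CL.MSS.normalizer_le_normalizer_centralizer V h) p).1 hp.1, by
      rw [tau_cj hd]; exact (mem_normalizer_iff.1 h _).1 hp.2⟩)

namespace Aff

variable {V : Subgroup G} {t b x z g : G} (h : Aff V t b x z g)
include h

local notation "P" => PP V z

theorem zP : z ∈ P := ⟨h.zc, by simp [tau]⟩

theorem gP : g ∈ P := ⟨h.gc, by simp [tau, h.gz, h.tV]⟩

theorem tauV {v : G} (hv : v ∈ V) : tau z v = 1 := by rw [tau, h.zc v hv]; group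

theorem VP : V ≤ P := fun v hv => ⟨fun _ hw => h.comm hw hv, h.tauV hv ▸ V.one_mem⟩

theorem xP {p : G} (hp : p ∈ P) : x * p * x⁻¹ ∈ P := (mem_normalizer_iff.1 (PP_norm h.xz h.xN) p).1 hp

theorem zmul (a : G) : z * (z * a) = a := by rw [← mul_assoc, h.zz, one_mul]

theorem ker {p : G} (hp : p ∈ P) (e : tau z p = 1) : p ∈ V ∨ z * p ∈ V :=
  h.ce p hp.1 (by rw [tau_eq, e, mul_one])

theorem sqP {p : G} (hp : p ∈ P) : p * p ∈ V := by
  refine (h.ker (mul_mem hp hp) (by rw [tau_mul hp.1 hp.2, h.sq hp.2])).elim id fun e => ?_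
  have e1 : p * z * p⁻¹ = z := by
    have := hp.1 _ e
    rw [show z * (p * p) * p = z * p * (p * p) by group, ← mul_assoc p, mul_left_inj] at this
    rw [← this]; group
  rcases h.ce p hp.1 e1 with k | k
  · exact V.mul_mem k k
  · have := V.mul_mem k k
    rwa [mul_assoc, ← mul_assoc p, mul_inv_eq_iff_eq_mul.1 e1, mul_assoc, h.zmul] at this

theorem commP {p q : G} (hp : p ∈ P) (hq : q ∈ P) : (q * p)⁻¹ * (p * q) ∈ V := by
  have := V.mul_mem (V.mul_mem (V.inv_mem (h.sqP hp)) (h.sqP (mul_mem hp (inv_mem hq)))) (h.sqP hq)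
  convert this using 1
  group

theorem sw {p q c : G} (a : G) (hp : p ∈ P) (hq : q ∈ P) (hc : c ∈ P) (k : a * (q * p) * c ∈ V) :
    a * (p * q) * c ∈ V := by
  have := V.mul_mem k (h.commP hp hq)
  rw [mul_assoc, ← hc.1 _ (h.commP hp hq)] at this
  convert this using 1
  group

/-- the subgroup `[P, x]` -/
def UU : Subgroup G where
  carrier := {p | p ∈ P ∧ p * (x * p * x⁻¹) * (x * (x * p * x⁻¹) * x⁻¹) ∈ V}
  one_mem' := ⟨one_mem _, by simp⟩
  mul_mem' := fun {p q} hp hq => ⟨mul_mem hp.1 hq.1, by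
    have k := V.mul_mem hp.2 hq.2
    have p1 := h.xP hp.1
    have q1 := h.xP hq.1
    have p2 := h.xP p1
    have q2 := h.xP q1
    rw [cj_mul', cj_mul']
    generalize x * (x * p * x⁻¹) * x⁻¹ = p'' at *
    generalize x * (x * q * x⁻¹) * x⁻¹ = q'' at *
    generalize x * p * x⁻¹ = p' at *
    generalize x * q * x⁻¹ = q' at *
    have k1 := h.sw (p * p') (mul_mem hq.1 q1) p2 q2 (by simpa only [mul_assoc] using k)
    have k2 := h.sw p hq.1 p1 (mul_mem q1 (mul_mem p2 q2)) (by simpa only [mul_assoc] using k1)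
    simpa only [mul_assoc] using k2⟩
  inv_mem' := fun {p} hp => ⟨inv_mem hp.1, by
    have k := V.inv_mem hp.2
    have p1 := h.xP hp.1
    have p2 := h.xP p1
    rw [← conj_inv, ← conj_inv]
    generalize x * (x * p * x⁻¹) * x⁻¹ = p'' at *
    generalize x * p * x⁻¹ = p' at *
    have k1 := h.sw 1 (inv_mem (mul_mem hp.1 p1)) (inv_mem p2) (one_mem _) (by simpa using k)
    have k2 := h.sw 1 (inv_mem hp.1) (inv_mem p1) (inv_mem p2) (by simpa using k1)
    simpa using k2⟩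

local notation "U" => UU h

theorem UP : U ≤ P := fun _ hu => hu.1

theorem VU : V ≤ U := fun _ hv => ⟨h.VP hv, h.nrm hv ▸ V.one_mem⟩

theorem zU : z ∉ U := fun k => h.zV (by simpa only [h.xz, h.zz, one_mul] using k.2)

theorem xU {u : G} (hu : u ∈ U) : x * u * x⁻¹ ∈ U := ⟨h.xP hu.1, by
  rw [← cj_mul', ← cj_mul']
  exact (mem_normalizer_iff.1 h.xN _).1 hu.2⟩

theorem split {p : G} (hp : p ∈ P) : p ∈ U ∨ z * p ∈ U := by
  have p1 := h.xP hp
  have p2 := h.xP p1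
  refine (h.ker (mul_mem (mul_mem hp p1) p2) ?_).imp (fun k => ⟨hp, k⟩) fun k => ⟨mul_mem h.zP hp, ?_⟩
  · rw [tau_mul (mul_mem hp p1).1 p2.2, tau_mul hp.1 p1.2, tau_cj h.xz (x * p * x⁻¹), tau_cj h.xz,
      h.nrm hp.2]
  · rw [cj_mul', cj_mul', h.xz, h.xz]
    generalize x * (x * p * x⁻¹) * x⁻¹ = p'' at *
    generalize x * p * x⁻¹ = p' at *
    have k1 := h.sw (z * p * z) p1 h.zP p2 (by
      have := h.sw z hp (h.zz ▸ mul_mem h.zP h.zP : z * z ∈ P) (mul_mem p1 p2) (by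
        simpa only [h.zz, one_mul, mul_assoc] using k)
      simpa only [mul_assoc] using this)
    simpa only [mul_assoc] using k1

theorem kerU {u : G} (hu : u ∈ U) (e : tau z u = 1) : u ∈ V :=
  (h.ker hu.1 e).elim id fun k => absurd ((U).mul_mem_cancel_right hu |>.1 (h.VU k)) h.zU

theorem of_tau {u w : G} (hu : u ∈ U) (hw : w ∈ U) (e : tau z u = tau z w) : w⁻¹ * u ∈ V := by
  refine h.kerU (mul_mem (inv_mem hw) hu) ?_
  have := tau_mul (q := w⁻¹ * u) hw.1.1 (mul_mem (inv_mem hw) hu).1.2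
  rw [mul_inv_cancel_left, e] at this
  simpa using this

theorem exists_t : ∃ u ∈ U, tau z u = t := by
  have e : tau z g = t := by simp [tau, h.gz]
  rcases h.split h.gP with k | k
  · exact ⟨g, k, e⟩
  · exact ⟨_, k, by rw [tau_mul h.zc h.gP.2, e]; simp [tau]⟩

theorem surj {v : G} (hv : v ∈ V) : ∃ u ∈ U, tau z u = v := by
  obtain ⟨u, hu, e⟩ := h.exists_t
  rcases (h.mem v).1 hv with rfl | rfl | rfl | rfl
  · exact ⟨1, one_mem _, by simp [tau]⟩
  · exact ⟨u, hu, e⟩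
  · exact ⟨_, h.xU hu, by rw [tau_cj h.xz, e, h.xt]⟩
  · exact ⟨_, h.xU (h.xU hu), by rw [tau_cj h.xz, tau_cj h.xz, e, h.xt, h.xb]⟩

theorem commU {u w : G} (hu : u ∈ U) (hw : w ∈ U) : u * w = w * u := by
  obtain ⟨a, ha, e⟩ := h.exists_t
  have ha1 := h.xU ha
  have e1 : tau z (x * a * x⁻¹) = b := by rw [tau_cj h.xz, e, h.xt]
  have c : a * (x * a * x⁻¹) = x * a * x⁻¹ * a := by
    have k := h.commP ha.1 ha1.1
    have := h.fpf k (by
      have k1 := ha.2
      have k2 := ha1.1.1 _ k1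
      have k3 := (mul_mem ha1 ha).1.1 _ k
      rw [cj_mul', ← conj_inv, cj_mul' x _ a, cj_mul' x a]
      generalize x * (x * a * x⁻¹) * x⁻¹ = a'' at *
      generalize x * a * x⁻¹ = a' at *
      obtain ⟨v, rfl⟩ : ∃ v, a'' = (a * a')⁻¹ * v := ⟨a * a' * a'', by group⟩
      rw [mul_inv_cancel_left] at k1 k2
      have k4 := (mul_mem ha ha1).1.1 _ (V.inv_mem k1)
      calc _ = a'⁻¹ * (v⁻¹ * (a * a')) * a⁻¹ * v := by group
        _ = a'⁻¹ * (a * a') * (v⁻¹ * a⁻¹) * v := by rw [k4]; group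
        _ = a'⁻¹ * (a * a') * a⁻¹ := by rw [(inv_mem ha).1.1 _ (V.inv_mem k1)]; group
        _ = a * ((a' * a)⁻¹ * (a * a')) * a⁻¹ := by group
        _ = _ := by rw [← ha.1.1 _ k]; group)
    rw [inv_mul_eq_one] at this
    exact this.symm
  have gen : ∀ y ∈ U, y * a = a * y → y * (x * a * x⁻¹) = x * a * x⁻¹ * y → U ≤ c1 y := by
    intro y hy k1 k2 u hu
    have kV : V ≤ c1 y := fun v hv => mem_centralizer_singleton_iff.2 (hy.1.1 v hv)
    have k3 : a ∈ c1 y := mem_centralizer_singleton_iff.2 k1.symm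
    have k4 : x * a * x⁻¹ ∈ c1 y := mem_centralizer_singleton_iff.2 k2.symm
    rcases (h.mem _).1 hu.1.2 with k | k | k | k
    · exact kV (h.kerU hu k)
    · exact (mul_mem_cancel_left (inv_mem k3)).1 (kV (h.of_tau hu ha (k.trans e.symm)))
    · exact (mul_mem_cancel_left (inv_mem k4)).1 (kV (h.of_tau hu ha1 (k.trans e1.symm)))
    · exact (mul_mem_cancel_left (inv_mem (mul_mem k3 k4))).1 (kV (h.of_tau hu (mul_mem ha ha1)
        (by rw [k, tau_mul ha.1.1 ha1.1.2, e, e1])))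
  exact mem_centralizer_singleton_iff.1 (gen w hw
    (mem_centralizer_singleton_iff.1 (gen a ha rfl c hw))
    (mem_centralizer_singleton_iff.1 (gen _ ha1 c.symm rfl hw)) hu)

theorem cardU : Nat.card U = 16 := by
  have e : U ⊓ c1 z = V := le_antisymm (fun u hu => h.kerU hu.1 (by rw [tau, mem_c1.1 hu.2]; simp))
    (le_inf h.VU fun v hv => mem_centralizer_singleton_iff.2 (h.zc v hv))
  rw [← card_mul_rel (c1 z) U, e, rel_coset (fun v hv => let ⟨u, hu, k⟩ := h.surj hv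
    ⟨u, hu, by rw [tau_eq, k]⟩) fun u hu => ⟨_, hu.1.2, tau_eq z u⟩, h.card]

theorem cardP : Nat.card P = 32 := by
  rw [card_eq_two_mul h.UP h.zP h.zU fun _ => h.split, h.cardU]

theorem mulU {p q : G} (hp : p ∈ P) (hq : q ∈ P) (h1 : p ∉ U) (h2 : q ∉ U) : p * q ∈ U :=
  mul_mem_of_card h.UP (by rw [h.cardP, h.cardU]) hp hq h1 h2

theorem memV {u p : G} (hu : u ∈ U) (hp : p ∈ P) (h1 : p ∉ U) (e : u * p = p * u) : u ∈ V := by
  have k := h.commU hu ((h.split hp).resolve_left h1)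
  rw [mul_assoc, ← e, ← mul_assoc, ← mul_assoc, mul_left_inj] at k
  exact h.kerU hu (by rw [tau, k]; group)

theorem uniq {A : Subgroup G} (hA : A ≤ P) (hc : ∀ a ∈ A, ∀ b ∈ A, a * b = b * a)
    (k : Nat.card A = 16) : A = U := by
  refine eq_of_le_of_card_ge ?_ (by rw [k, h.cardU])
  by_contra e
  obtain ⟨p, hp, hp'⟩ := SetLike.not_le_iff_exists.1 e
  have k1 := card_le_two_mul (A := U) (B := A) fun a ha b hb => h.mulU (hA ha) (hA hb)
  have k2 := card_le_of_le (show A ⊓ U ≤ V from fun u hu => h.memV hu.2 (hA hp) hp' (hc _ hu.1 _ hp))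
  rw [h.card] at k2
  omega

theorem cjU {k : G} (hk : k •ᶜ U ≤ P) : k ∈ normalizer (U : Set G) :=
  mem_normalizer_iff_cj.2 (h.uniq hk (by
    rintro _ ⟨a, ha, rfl⟩ _ ⟨b, hb, rfl⟩
    rw [← map_mul, ← map_mul, h.commU ha hb]) (by rw [card_cj, h.cardU]))

theorem pP : IsPGroup 2 P := IsPGroup.of_card (n := 5) h.cardP

theorem delta {S : Subgroup G} (hS : Hyp S)
    (hz : ∀ Q : Subgroup G, IsPGroup 2 Q → V ≤ Q → z ∈ Q → ∀ q ∈ Q, q * z * q⁻¹ = z → q ∈ V ∨ z * q ∈ V) :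
    False := by
  obtain ⟨S', hS', hle⟩ := exists_sylIn_ge h.pP le_top
  obtain ⟨k, hk, hk'⟩ := SetLike.exists_of_lt (lt_inf_normalizer_of_lt hS'.pgroup
    (lt_of_le_of_ne hle fun e => by simpa [← e, h.cardP] using (hS.change hS').card))
  have l1 : ∀ m ∈ normalizer (P : Set G), ∃ u ∈ U, m * z * m⁻¹ = z * u := fun m hm => by
    refine ⟨_, (h.split ((mem_normalizer_iff.1 hm z).1 h.zP)).resolve_left fun e => h.zU ?_,
      (h.zmul _).symm⟩
    exact (mem_normalizer_iff.1 (h.cjU (cj_le_of_mem_normalizer h.UP hm)) z).2 e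
  have l2 : ∀ u ∈ U, ∀ w ∈ U, (∃ m ∈ normalizer (P : Set G), m * z * m⁻¹ = z * w) → tau z u = tau z w →
      ∃ m ∈ normalizer (P : Set G), m * z * m⁻¹ = z * u := by
    rintro u hu w hw ⟨m, hm, e⟩ e1
    obtain ⟨y, hy, e2⟩ := h.surj (h.of_tau hu hw e1)
    refine ⟨y * m, mul_mem (le_normalizer (h.UP hy)) hm, ?_⟩
    rw [cj_cj, e, cj_mul', tau_eq, e2, h.commU hy hw, mul_inv_cancel_right, mul_assoc,
      ← h.commU hw (mul_mem (inv_mem hw) hu), mul_inv_cancel_left]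
  have l3 : ∀ w ∈ U, (∃ m ∈ normalizer (P : Set G), m * z * m⁻¹ = z * w) →
      ∃ m ∈ normalizer (P : Set G), m * z * m⁻¹ = z * (x * w * x⁻¹) := by
    rintro w hw ⟨m, hm, e⟩
    exact ⟨x * m, mul_mem (PP_norm h.xz h.xN) hm, by rw [cj_cj, e, cj_mul', h.xz]⟩
  obtain ⟨w, hw, e⟩ := l1 k hk.2
  have hw1 : tau z w ≠ 1 := fun e1 => by
    obtain ⟨y, hy, e2⟩ := h.surj (h.kerU hw e1)
    refine hk' ((mul_mem_cancel_left (inv_mem (h.UP hy))).1 ?_)
    rcases hz S' hS'.pgroup (h.VP.trans hle) (hle h.zP) (y⁻¹ * k)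
      (mul_mem (inv_mem (hle (h.UP hy))) hk.1) (by rw [cj_cj, e, ← e2, ← tau_eq]; group) with l | l
    · exact h.VP l
    · exact (mul_mem_cancel_left h.zP).1 (h.VP l)
  have l4 : (c1 z).relIndex (normalizer (P : Set G)) = Nat.card U := rel_coset (fun u hu => by
    by_cases e1 : tau z u = 1
    · exact l2 u hu 1 (one_mem _) ⟨1, one_mem _, by simp⟩ (by rw [e1]; simp [tau])
    rcases h.trans hw.1.2 hu.1.2 hw1 e1 with e2 | e2 | e2
    · exact l2 u hu w hw ⟨k, hk.2, e⟩ e2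
    · exact l2 u hu _ (h.xU hw) (l3 w hw ⟨k, hk.2, e⟩) (by rw [e2, tau_cj h.xz])
    · exact l2 u hu _ (h.xU (h.xU hw)) (l3 _ (h.xU hw) (l3 w hw ⟨k, hk.2, e⟩))
        (by rw [e2, tau_cj h.xz, tau_cj h.xz])) l1
  refine hS.big (hS.norm_ne' (fun e => by simpa [e] using h.cardP) h.pP) ?_ h.nt (PP_norm h.xz h.xN)
  rw [← card_mul_rel (c1 z), l4, h.cardU]
  refine Nat.mul_dvd_mul_right (a := 8) ?_ 16
  have l5 : Nat.card (P ⊓ c1 z : Subgroup G) = 8 := by
    refine (card_eq_two_mul (le_inf h.VP fun v hv => mem_centralizer_singleton_iff.2 (h.zc v hv))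
      ⟨h.zP, mem_c1.2 (by group)⟩ h.zV fun a ha => h.ce a ha.1.1 (mem_c1.1 ha.2)).trans (by rw [h.card])
  exact l5 ▸ card_dvd_of_le (inf_le_inf_right _ le_normalizer)

theorem gamma {S : Subgroup G} (hS : Hyp S) (ht : c1 t = S) {d : G} (d1 : d * z * d⁻¹ = z)
    (d2 : d * t * d⁻¹ = t) (d3 : d * b * d⁻¹ = t * b) : False := by
  have dV : d ∈ normalizer (V : Set G) := h.norm (d2.symm ▸ h.tV) (d3 ▸ mul_mem h.tV h.bV)
  have dP := PP_norm d1 dV
  have d4 : d * (t * b) * d⁻¹ = b := by rw [cj_mul', d2, d3, ← mul_assoc, h.tt, one_mul]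
  have fx : ∀ v ∈ V, d * v * d⁻¹ = v → v = 1 ∨ v = t := fun v hv e => by
    rcases (h.mem v).1 hv with rfl | rfl | rfl | rfl
    · exact Or.inl rfl
    · exact Or.inr rfl
    · exact absurd (by simpa using d3.symm.trans e) h.t1
    · exact absurd (by simpa using e.symm.trans d4) h.t1
  have dd : d * d ∈ P := ⟨h.cent (by rw [cj_cj, d2, d2]) (by rw [cj_cj, d3, d4]), by
    rw [tau, cj_cj, d1, d1]; simp⟩
  have d5 : d ∉ P := fun e => h.t1 (by simpa [← e.1 b h.bV] using d3.symm)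
  have hc := card_eq_two_mul (le_sup_left : P ≤ P ⊔ zpowers d) (mem_sup_right (mem_zpowers d)) d5
    fun _ => sup_cases dP dd
  have hle : P ⊔ zpowers d ≤ S := ht ▸ sup_le (fun p hp => mem_centralizer_singleton_iff.2
    (hp.1 t h.tV).symm) (zpowers_le.2 (mem_c1.2 d2))
  have hn := le_norm_of_card hle (by rw [hc, h.cardP, hS.card])
  refine hS.big (H := normalizer (U : Set G)) (hS.norm_ne' (fun e => by simpa [e] using h.cardU)
    (h.pP.to_le h.UP)) (hS.card ▸ card_dvd_of_le fun k hk => h.cjU ?_) h.nt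
    (h.cjU (cj_le_of_mem_normalizer h.UP (PP_norm h.xz h.xN)))
  have hB := cj_le_of_mem_normalizer (h.UP.trans le_sup_left) (hn hk)
  have cB : ∀ a ∈ k •ᶜ U, ∀ b ∈ k •ᶜ U, a * b = b * a := by
    rintro _ ⟨a, ha, rfl⟩ _ ⟨b, hb, rfl⟩
    rw [← map_mul, ← map_mul, h.commU ha hb]
  have kB : Nat.card (k •ᶜ U : Subgroup G) = 16 := by rw [card_cj, h.cardU]
  generalize k •ᶜ U = B at *
  by_contra e
  obtain ⟨a, ha, ha'⟩ := SetLike.not_le_iff_exists.1 e
  have da := (sup_cases dP dd (hB ha)).resolve_left ha'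
  have k1 := card_le_two_mul (A := P) (B := B) fun a ha b hb => mul_mem_of_card le_sup_left hc (hB ha) (hB hb)
  have fx' : ∀ v ∈ V, v ∈ B → v = 1 ∨ v = t := fun v hv hv' => fx v hv (by
    have := da.1 v hv
    rw [mul_assoc d, ← cB v hv' a ha, ← mul_assoc, ← mul_assoc, mul_left_inj] at this
    rw [← this]; group)
  have k2 : Nat.card (B ⊓ P : Subgroup G) ≤ 4 := by
    by_cases l : B ⊓ P ≤ U
    · have tl : ∀ u ∈ B ⊓ P, u ∉ V → tau z u = t := fun u hu hu' => by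
        refine (fx _ hu.2.2 ?_).resolve_left fun e => hu' (h.kerU (l hu) e)
        have e1 : d * u * d⁻¹ = d * a * u * (d * a)⁻¹ := by rw [mul_assoc d a, cB a ha u hu.1]; group
        have e2 := tau_mul (q := d * a) (conj_mem_of_normalizes le_normalizer da hu.2).1 da.2
        rw [inv_mul_cancel_right, tau_mul da.1 hu.2.2, h.comm da.2 hu.2.2, mul_left_inj] at e2
        rw [← tau_cj d1, e1, ← e2]
      have k3 := card_le_two_mul (A := V) (B := B ⊓ P) fun u hu w hw hu' hw' =>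
        h.kerU (l (mul_mem hu hw)) (by rw [tau_mul hu.2.1 hw.2.2, tl u hu hu', tl w hw hw', h.tt])
      have k4 := card_pair (A := B ⊓ P ⊓ V) h.t1 fun v hv => fx' v hv.2 hv.1.1
      omega
    · obtain ⟨p, hp, hp'⟩ := SetLike.not_le_iff_exists.1 l
      have k3 := card_le_two_mul (A := U) (B := B ⊓ P) fun u hu w hw => h.mulU hu.2 hw.2
      have k4 := card_pair (A := B ⊓ P ⊓ U) h.t1 fun v hv =>
        fx' v (h.memV hv.2 hp.2 hp' (cB _ hv.1.1 _ hp.1)) hv.1.1
      omega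
  omega

end Aff

end CL.Len8
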